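import Mathlib
import Cfsg.Agent.Eq.Def_BaumannBlocks
import Cfsg.Agent.Eq.Def_LocalStructure
import Cfsg.Agent.Eq.Def_Amalgam
import Cfsg.Agent.Eq.Def_PLocal

/-!
Irreducibility of the two modules occurring in `B(T)`-blocks: the natural module of the derived group of
`SL₂(F)` and the even-weight permutation module of the alternating group of odd degree.
-/

set_option autoImplicit false

open Cfsg
open scoped commutatorElement MatrixGroups

namespace CfsgLib.BaumannBlock

variable {F : Type*} [Field F]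

/-- Upper unitriangular matrix. -/
def upperUni (a : F) : SL(2, F) := ⟨!![1, a; 0, 1], by simp [Matrix.det_fin_two]⟩

/-- Lower unitriangular matrix. -/
def lowerUni (a : F) : SL(2, F) := ⟨!![1, 0; a, 1], by simp [Matrix.det_fin_two]⟩

/-- Diagonal matrix. -/
def diagSL (t : F) (ht : t ≠ 0) : SL(2, F) := ⟨!![t, 0; 0, t⁻¹], by simp [Matrix.det_fin_two, ht]⟩

/-- The Weyl element. -/
def weylSL : SL(2, F) := ⟨!![0, 1; -1, 0], by simp [Matrix.det_fin_two]⟩

theorem upperUni_coe (a : F) : ((upperUni a : SL(2, F)) : Matrix (Fin 2) (Fin 2) F) = !![1, a; 0, 1] := rfl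

theorem lowerUni_coe (a : F) : ((lowerUni a : SL(2, F)) : Matrix (Fin 2) (Fin 2) F) = !![1, 0; a, 1] := rfl

theorem diagSL_coe (t : F) (ht : t ≠ 0) :
    ((diagSL t ht : SL(2, F)) : Matrix (Fin 2) (Fin 2) F) = !![t, 0; 0, t⁻¹] := rfl

theorem weylSL_coe : ((weylSL : SL(2, F)) : Matrix (Fin 2) (Fin 2) F) = !![0, 1; -1, 0] := rfl

theorem upperUni_mul_lowerUni_mem (a : F) :
    upperUni a * lowerUni a ∈ commutator SL(2, F) := by
  have h : upperUni a * lowerUni a = ⁅upperUni a, (weylSL : SL(2, F))⁆ := by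
    rw [commutatorElement_def]
    ext i j
    fin_cases i <;> fin_cases j <;>
      simp [upperUni_coe, lowerUni_coe, weylSL_coe, Matrix.SpecialLinearGroup.coe_mul, Matrix.SpecialLinearGroup.coe_inv, Matrix.adjugate_fin_two,
        Matrix.mul_apply, Fin.sum_univ_two, add_comm]
  rw [h]
  exact Subgroup.commutator_mem_commutator (Subgroup.mem_top _) (Subgroup.mem_top _)

theorem upperUni_mem_commutator (h : ∃ t : F, t ≠ 0 ∧ t * t ≠ 1) (a : F) :
    upperUni a ∈ commutator SL(2, F) ∧ lowerUni a ∈ commutator SL(2, F) := by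
  obtain ⟨t, ht, ht1⟩ := h
  have hd : t * t - 1 ≠ 0 := sub_ne_zero.2 ht1
  obtain ⟨c, rfl⟩ : ∃ c, c * (t * t - 1) = a := ⟨a / (t * t - 1), div_mul_cancel₀ a hd⟩
  constructor
  · have h : upperUni (c * (t * t - 1)) = ⁅diagSL t ht, upperUni c⁆ := by
      rw [commutatorElement_def]
      ext i j
      fin_cases i <;> fin_cases j <;>
        simp [upperUni_coe, diagSL_coe, Matrix.SpecialLinearGroup.coe_mul, Matrix.SpecialLinearGroup.coe_inv, Matrix.adjugate_fin_two,
          Matrix.mul_apply, Fin.sum_univ_two] <;>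
        field_simp <;> ring
    rw [h]
    exact Subgroup.commutator_mem_commutator (Subgroup.mem_top _) (Subgroup.mem_top _)
  · have h : lowerUni (c * (t * t - 1)) = ⁅diagSL t⁻¹ (inv_ne_zero ht), lowerUni c⁆ := by
      rw [commutatorElement_def]
      ext i j
      fin_cases i <;> fin_cases j <;>
        simp [lowerUni_coe, diagSL_coe, Matrix.SpecialLinearGroup.coe_mul, Matrix.SpecialLinearGroup.coe_inv, Matrix.adjugate_fin_two,
          Matrix.mul_apply, Fin.sum_univ_two] <;>
        field_simp <;> ring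
    rw [h]
    exact Subgroup.commutator_mem_commutator (Subgroup.mem_top _) (Subgroup.mem_top _)

/-- An additive subgroup of `F²` invariant under the derived group of `SL₂(F)` is trivial or everything. -/
theorem natural_irreducible [Fintype F] (S : AddSubgroup (Fin 2 → F))
    (hS : ∀ g ∈ commutator SL(2, F), ∀ v ∈ S, (g : Matrix (Fin 2) (Fin 2) F).mulVec v ∈ S)
    {v : Fin 2 → F} (hv : v ∈ S) (hv0 : v ≠ 0) : S = ⊤ := by
  refine eq_top_iff.2 fun w _ => ?_
  have key : ∀ g ∈ commutator SL(2, F), ∀ u ∈ S, (g : Matrix (Fin 2) (Fin 2) F).mulVec u - u ∈ S :=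
    fun g hg u hu => S.sub_mem (hS g hg u hu) hu
  by_cases hbig : ∃ t : F, t ≠ 0 ∧ t * t ≠ 1
  · have hup : ∀ u ∈ S, ∀ a : F, ![a * u 1, 0] ∈ S := by
      intro u hu a
      convert key _ (upperUni_mem_commutator hbig a).1 u hu using 1
      funext i
      fin_cases i <;> simp [upperUni, Matrix.mulVec, dotProduct, Fin.sum_univ_two]
    have hlow : ∀ u ∈ S, ∀ a : F, ![0, a * u 0] ∈ S := by
      intro u hu a
      convert key _ (upperUni_mem_commutator hbig a).2 u hu using 1
      funext i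
      fin_cases i <;> simp [lowerUni, Matrix.mulVec, dotProduct, Fin.sum_univ_two]
    have hfirst : ∀ b : F, ![b, 0] ∈ S := by
      intro b
      by_cases h1 : v 1 = 0
      · have h0 : v 0 ≠ 0 := fun h0 => hv0 (funext fun i => by fin_cases i <;> simp [h0, h1])
        have h3 := hlow v hv (1 / v 0)
        rw [one_div, inv_mul_cancel₀ h0] at h3
        simpa using hup _ h3 b
      · simpa [div_mul_cancel₀ b h1] using hup v hv (b / v 1)
    have hsecond : ∀ b : F, ![0, b] ∈ S := fun b => by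
      simpa using hlow _ (hfirst 1) b
    convert S.add_mem (hfirst (w 0)) (hsecond (w 1)) using 1
    funext i
    fin_cases i <;> simp
  · push Not at hbig
    have hcases : ∀ x : F, x = 0 ∨ x = 1 ∨ x = -1 := fun x => by
      by_cases hx : x = 0
      · exact Or.inl hx
      · exact Or.inr (mul_self_eq_one_iff.1 (hbig x hx))
    have hmul : ∀ (c : F), ∀ u ∈ S, c • u ∈ S := by
      intro c u hu
      rcases hcases c with rfl | rfl | rfl
      · rw [zero_smul]; exact S.zero_mem
      · rwa [one_smul]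
      · rw [neg_one_smul]; exact S.neg_mem hu
    set u : Fin 2 → F := ![v 0 + v 1, v 0] with hu
    have huS : u ∈ S := by
      convert key _ (upperUni_mul_lowerUni_mem (1 : F)) v hv using 1
      funext i
      fin_cases i <;> simp [hu, upperUni_coe, lowerUni_coe, Matrix.SpecialLinearGroup.coe_mul, Matrix.mulVec, dotProduct, Matrix.mul_apply, Fin.sum_univ_two] <;> ring
    set d := v 0 * v 0 - v 1 * (v 0 + v 1) with hd
    have hd0 : d ≠ 0 := by
      intro h
      have hz : ¬ (v 0 = 0 ∧ v 1 = 0) := fun hz => hv0 (funext fun i => by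
        fin_cases i <;> simp [hz.1, hz.2])
      rcases hcases (v 0) with h0 | h0 | h0 <;> rcases hcases (v 1) with h1 | h1 | h1 <;>
        first
        | exact hz ⟨h0, h1⟩
        | (rw [hd, h0, h1] at h; ring_nf at h; simp at h)
    have hw : w = ((w 0 * v 0 - w 1 * (v 0 + v 1)) / d) • v + ((v 0 * w 1 - v 1 * w 0) / d) • u := by
      funext i
      fin_cases i <;> simp [hu] <;> field_simp <;> rw [hd] <;> ring
    rw [hw]
    exact S.add_mem (hmul _ _ hv) (hmul _ _ huS)

/-- An additive subgroup of the even-weight vectors of odd length invariant under the alternating group is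
trivial or contains all of them. -/
theorem evenWeight_irreducible {m : ℕ} (S : AddSubgroup (Fin (2 * m + 1) → ZMod 2))
    (hS : ∀ σ ∈ alternatingGroup (Fin (2 * m + 1)), ∀ v ∈ S, (fun i => v (σ⁻¹ i)) ∈ S)
    (hev : ∀ v ∈ S, ∑ i, v i = 0) {v : Fin (2 * m + 1) → ZMod 2} (hv : v ∈ S) (hv0 : v ≠ 0)
    {w : Fin (2 * m + 1) → ZMod 2} (hw : ∑ i, w i = 0) : w ∈ S := by
  classical
  have htwo : ∀ x : ZMod 2, x = 0 ∨ x = 1 := by decide
  obtain ⟨i, hi⟩ := Function.ne_iff.1 hv0
  have hi1 : v i = 1 := (htwo (v i)).resolve_left hi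
  obtain ⟨j, hj⟩ : ∃ j, v j = 0 := by
    by_contra h
    push Not at h
    have h1 := hev v hv
    rw [Finset.sum_congr rfl fun x _ => (htwo (v x)).resolve_left (h x), Finset.sum_const,
      Finset.card_univ, Fintype.card_fin, nsmul_one] at h1
    push_cast at h1
    rw [show (2 : ZMod 2) = 0 from rfl, zero_mul, zero_add] at h1
    exact one_ne_zero h1
  have hij : i ≠ j := fun h => by rw [h, hj] at hi1; exact zero_ne_one hi1
  let pr : Fin (2 * m + 1) → Fin (2 * m + 1) → Fin (2 * m + 1) → ZMod 2 :=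
    fun a b x => (if x = a then 1 else 0) + (if x = b then 1 else 0)
  -- one pair
  obtain ⟨a₀, b₀, hab₀, hpair⟩ : ∃ a b, a ≠ b ∧ pr a b ∈ S := by
    rcases Nat.lt_or_ge m 2 with hm | hm
    · have hm1 : m = 1 := by
        rcases m with _ | m
        · exact absurd (Subsingleton.elim (α := Fin 1) i j) hij
        · omega
      subst hm1
      obtain ⟨k, hki, hkj, hk⟩ : ∃ k, k ≠ i ∧ k ≠ j ∧ ∀ x, x = i ∨ x = j ∨ x = k :=
        (show ∀ a b : Fin (2 * 1 + 1), a ≠ b → ∃ k, k ≠ a ∧ k ≠ b ∧ ∀ x, x = a ∨ x = b ∨ x = k by decide) i j hij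
      refine ⟨i, k, hki.symm, ?_⟩
      have hvk : v k = 1 := by
        have h1 := hev v hv
        have h2 : (Finset.univ : Finset (Fin (2 * 1 + 1))) = {i, j, k} := by
          ext x; simpa using hk x
        rw [h2, Finset.sum_insert (by simp [hij, hki.symm]), Finset.sum_insert (by simp [hkj.symm]),
          Finset.sum_singleton, hi1, hj, zero_add] at h1
        rcases htwo (v k) with h3 | h3
        · rw [h3, add_zero] at h1; exact absurd h1 one_ne_zero
        · exact h3
      convert hv using 1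
      funext x
      rcases hk x with rfl | rfl | rfl
      · simp [pr, hki.symm, hi1]
      · simp [pr, hij.symm, hkj.symm, hj]
      · simp [pr, hki, hvk]
    · obtain ⟨⟨k, hk⟩, ⟨l, hl⟩, hkl, hvkl⟩ :=
        Fintype.exists_ne_map_eq_of_card_lt (fun x : {x : Fin (2 * m + 1) // x ∉ ({i, j} : Finset _)} => v x.1)
          (by rw [ZMod.card, Fintype.card_subtype_compl, Fintype.card_coe, Finset.card_pair hij,
                Fintype.card_fin]; omega)
      simp only [Finset.mem_insert, Finset.mem_singleton, not_or] at hk hl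
      have hkl' : k ≠ l := fun h => hkl (Subtype.ext h)
      let σ : Equiv.Perm (Fin (2 * m + 1)) := Equiv.swap i j * Equiv.swap k l
      have hσ : σ ∈ alternatingGroup (Fin (2 * m + 1)) := by
        rw [Equiv.Perm.mem_alternatingGroup, map_mul, Equiv.Perm.sign_swap hij, Equiv.Perm.sign_swap hkl']
        decide
      refine ⟨i, j, hij, ?_⟩
      have hσx : ∀ x, σ⁻¹ x = Equiv.swap k l (Equiv.swap i j x) := fun x => by
        simp [σ, mul_inv_rev, Equiv.Perm.mul_apply]
      convert S.add_mem hv (hS σ hσ v hv) using 1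
      funext x
      show pr i j x = v x + v (σ⁻¹ x)
      rw [hσx]
      by_cases hxi : x = i
      · subst hxi
        rw [Equiv.swap_apply_left, Equiv.swap_apply_of_ne_of_ne (Ne.symm hk.2) (Ne.symm hl.2), hi1, hj]
        simp [pr, hij]
      by_cases hxj : x = j
      · subst hxj
        rw [Equiv.swap_apply_right, Equiv.swap_apply_of_ne_of_ne (Ne.symm hk.1) (Ne.symm hl.1), hi1, hj]
        simp [pr, hij.symm]
      rw [Equiv.swap_apply_of_ne_of_ne hxi hxj]
      have hx2 : v (Equiv.swap k l x) = v x := by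
        rw [Equiv.swap_apply_def]
        split_ifs with h1 h2
        · rw [h1]; exact hvkl.symm
        · rw [h2]; exact hvkl
        · rfl
      rw [hx2, CharTwo.add_self_eq_zero]
      simp [pr, hxi, hxj]
  -- all pairs
  have hstep : ∀ a b k, a ≠ b → k ≠ a → k ≠ b → pr a b ∈ S → pr b k ∈ S ∧ pr a k ∈ S := by
    intro a b k hab hka hkb h
    let c : Equiv.Perm (Fin (2 * m + 1)) := Equiv.swap a b * Equiv.swap b k
    have hc : c ∈ alternatingGroup (Fin (2 * m + 1)) := by
      rw [Equiv.Perm.mem_alternatingGroup, map_mul, Equiv.Perm.sign_swap hab, Equiv.Perm.sign_swap hkb.symm]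
      decide
    have hcx : ∀ x, c⁻¹ x = Equiv.swap b k (Equiv.swap a b x) := fun x => by
      simp [c, mul_inv_rev, Equiv.Perm.mul_apply]
    have h2 := hS c hc _ h
    have hca : c a = b := by
      simp [c, Equiv.Perm.mul_apply, Equiv.swap_apply_of_ne_of_ne hab hka.symm]
    have hcb : c b = k := by
      simp [c, Equiv.Perm.mul_apply, Equiv.swap_apply_of_ne_of_ne hka hkb]
    have hbk : pr b k ∈ S := by
      convert h2 using 1
      funext x
      have e1 : c⁻¹ x = a ↔ x = b := by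
        rw [Equiv.Perm.inv_eq_iff_eq, hca]
      have e2 : c⁻¹ x = b ↔ x = k := by
        rw [Equiv.Perm.inv_eq_iff_eq, hcb]
      simp only [pr, e1, e2]
    refine ⟨hbk, ?_⟩
    convert S.add_mem h hbk using 1
    funext x
    simp only [pr, Pi.add_apply]
    rw [add_add_add_comm, ← add_assoc _ (if x = b then (1 : ZMod 2) else 0), add_assoc _ _ (if x = b then (1 : ZMod 2) else 0),
      CharTwo.add_self_eq_zero, add_zero]
  have hsym : ∀ a b, pr a b = pr b a := fun a b => funext fun x => add_comm _ _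
  have hstar : ∀ b, pr a₀ b ∈ S := by
    intro b
    by_cases hba : b = a₀
    · subst hba
      convert S.zero_mem using 1
      funext x
      exact CharTwo.add_self_eq_zero _
    by_cases hbb : b = b₀
    · rwa [hbb]
    exact (hstep a₀ b₀ b hab₀ hba hbb hpair).2
  have hw' : w = ∑ b, (if w b = 1 then pr a₀ b else 0) := by
    funext x
    rw [Finset.sum_apply]
    have h1 : ∀ b, (if w b = 1 then pr a₀ b else 0) x = w b * (if x = a₀ then 1 else 0) + w b * (if x = b then 1 else 0) := by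
      intro b
      rcases htwo (w b) with h | h <;> simp [h, pr]
    rw [Finset.sum_congr rfl fun b _ => h1 b, Finset.sum_add_distrib, ← Finset.sum_mul, hw, zero_mul, zero_add]
    simp [Finset.sum_ite_eq]
  rw [hw']
  refine S.sum_mem fun b _ => ?_
  split_ifs
  · exact hstar b
  · exact S.zero_mem

/-- Irreducibility of a section carrying the natural module of the derived group of `SL₂(F)`. -/
theorem section_irreducible_linear {G : Type*} [Group G] [Fintype F] {E U U₀ : Subgroup G}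
    (h : ActsAsSL2OnSection F (commutator SL(2, F)) E U U₀) :
    ¬ U ≤ U₀ ∧ ∀ U₁ : Subgroup G, E ≤ Subgroup.normalizer (U₁ : Set G) → U₀ ≤ U₁ → U₁ ≤ U →
      U₁ ≤ U₀ ∨ U₁ = U := by
  obtain ⟨-, hle, ρ, ψ, hρ, hψ, hker, heq⟩ := h
  refine ⟨fun hU => ?_, fun U₁ hE h0 h1 => ?_⟩
  · obtain ⟨u, hu⟩ := hψ (Multiplicative.ofAdd ![(1 : F), 0])
    rw [(hker u).2 (hU u.2)] at hu
    exact one_ne_zero (congrFun (congrArg Multiplicative.toAdd hu.symm) 0)
  let S : AddSubgroup (Fin 2 → F) := Subgroup.toAddSubgroup' ((U₁.subgroupOf U).map ψ)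
  by_cases hz : U₁ ≤ U₀
  · exact Or.inl hz
  refine Or.inr (le_antisymm h1 fun u hu => ?_)
  obtain ⟨x, hx, hx0⟩ := Set.not_subset.1 hz
  have hxS : Multiplicative.toAdd (ψ ⟨x, h1 hx⟩) ∈ S := ⟨⟨x, h1 hx⟩, hx, rfl⟩
  have hxne : Multiplicative.toAdd (ψ ⟨x, h1 hx⟩) ≠ 0 := fun h => hx0 ((hker ⟨x, h1 hx⟩).1 h)
  have hinv : ∀ g ∈ commutator SL(2, F), ∀ v ∈ S, (g : Matrix (Fin 2) (Fin 2) F).mulVec v ∈ S := by
    intro g hg v hv
    obtain ⟨y, hy, hyv⟩ := hv
    rw [← hρ] at hg
    obtain ⟨e, rfl⟩ := hg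
    obtain ⟨z, hz1, hz2⟩ := heq e y
    refine ⟨z, ?_, ?_⟩
    · show (z : G) ∈ U₁
      rw [hz1]
      exact (Subgroup.mem_normalizer_iff.1 (hE e.2) _).1 hy
    · have hyv' : Multiplicative.toAdd (ψ y) = v := congrArg Multiplicative.toAdd hyv
      rw [hyv'] at hz2
      exact Multiplicative.toAdd.injective hz2
  have huS : Multiplicative.toAdd (ψ ⟨u, hu⟩) ∈ S :=
    natural_irreducible S hinv hxS hxne ▸ AddSubgroup.mem_top _
  obtain ⟨y, hy, hyu⟩ := huS
  have h3 : ψ (⟨u, hu⟩ * y⁻¹) = 1 := by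
    rw [map_mul, map_inv, hyu]
    exact mul_inv_cancel _
  have h4 := h0 ((hker _).1 h3)
  simpa using mul_mem h4 (show ((y : U) : G) ∈ U₁ from hy)

/-- Irreducibility of a section carrying the even-weight module of odd degree. -/
theorem section_irreducible_alt {G : Type*} [Group G] {m : ℕ} {E U U₀ : Subgroup G}
    (h : ActsAsOddPermModuleOnSection (2 * m + 1) (alternatingGroup (Fin (2 * m + 1))) E U U₀) :
    ∀ U₁ : Subgroup G, E ≤ Subgroup.normalizer (U₁ : Set G) → U₀ ≤ U₁ → U₁ ≤ U →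
      U₁ ≤ U₀ ∨ U₁ = U := by
  obtain ⟨-, hle, ρ, ψ, hρ, hev, -, hker, heq⟩ := h
  intro U₁ hE h0 h1
  let S : AddSubgroup (Fin (2 * m + 1) → ZMod 2) := Subgroup.toAddSubgroup' ((U₁.subgroupOf U).map ψ)
  by_cases hz : U₁ ≤ U₀
  · exact Or.inl hz
  refine Or.inr (le_antisymm h1 fun u hu => ?_)
  obtain ⟨x, hx, hx0⟩ := Set.not_subset.1 hz
  have hxS : Multiplicative.toAdd (ψ ⟨x, h1 hx⟩) ∈ S := ⟨⟨x, h1 hx⟩, hx, rfl⟩
  have hxne : Multiplicative.toAdd (ψ ⟨x, h1 hx⟩) ≠ 0 := fun h => hx0 ((hker ⟨x, h1 hx⟩).1 h)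
  have hsum : ∀ v ∈ S, ∑ i, v i = 0 := by
    intro v hv
    obtain ⟨y, -, hyv⟩ := hv
    have hyv' : Multiplicative.toAdd (ψ y) = v := congrArg Multiplicative.toAdd hyv
    exact hyv' ▸ hev y
  have hinv : ∀ σ ∈ alternatingGroup (Fin (2 * m + 1)), ∀ v ∈ S, (fun i => v (σ⁻¹ i)) ∈ S := by
    intro σ hσ v hv
    obtain ⟨y, hy, hyv⟩ := hv
    rw [← hρ] at hσ
    obtain ⟨e, rfl⟩ := hσ
    obtain ⟨z, hz1, hz2⟩ := heq e y
    have hyv' : Multiplicative.toAdd (ψ y) = v := congrArg Multiplicative.toAdd hyv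
    refine ⟨z, ?_, Multiplicative.toAdd.injective (funext fun i => ?_)⟩
    · show (z : G) ∈ U₁
      rw [hz1]
      exact (Subgroup.mem_normalizer_iff.1 (hE e.2) _).1 hy
    · rw [hz2 i, hyv']
      rfl
  have huS := evenWeight_irreducible S hinv hsum hxS hxne (hev ⟨u, hu⟩)
  obtain ⟨y, hy, hyu⟩ := huS
  have h3 : ψ (⟨u, hu⟩ * y⁻¹) = 1 := by
    rw [map_mul, map_inv, hyu]
    exact mul_inv_cancel _
  have h4 := h0 ((hker _).1 h3)
  simpa using mul_mem h4 (show ((y : U) : G) ∈ U₁ from hy)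

end CfsgLib.BaumannBlock
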