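import Mathlib
import Cfsg.Agent.BaumannBlock.Invariant
import Cfsg.Agent.BaumannBlock.Natural
import Cfsg.Agent.Constrained.Basic
import Cfsg.Agent.Eq.Def_Local

/-!
The commutator module `[Ω₁Z(Q), E]` of a `B(T)`-block `E`, `Q = O_p(E)`, in a group of characteristic `p`:
it equals `[Ω₁Z(O_p(G)), E]`.
-/

set_option autoImplicit false

open Cfsg
open scoped commutatorElement MatrixGroups

namespace CfsgLib.BaumannBlock

variable {G : Type*} [Group G] {p : ℕ}

theorem omegaOne_le (H : Subgroup G) : omegaOne p H ≤ H :=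
  (Subgroup.closure_le _).2 fun _ hx => hx.1

theorem omegaOneCenter_le (X : Subgroup G) : omegaOneCenter p X ≤ X :=
  (omegaOne_le _).trans inf_le_left

theorem omegaOneCenter_le_centralizer (X : Subgroup G) :
    omegaOneCenter p X ≤ Subgroup.centralizer (X : Set G) :=
  (omegaOne_le _).trans inf_le_right

theorem omegaOneCenter_comm (X : Subgroup G) {a b : G} (ha : a ∈ omegaOneCenter p X)
    (hb : b ∈ omegaOneCenter p X) : a * b = b * a :=
  Subgroup.mem_centralizer_iff.1 (omegaOneCenter_le_centralizer X hb) a (omegaOneCenter_le X ha)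

theorem omegaOneCenter_pow (X : Subgroup G) {a : G} (ha : a ∈ omegaOneCenter p X) : a ^ p = 1 := by
  refine Subgroup.closure_induction (fun x hx => hx.2) (one_pow p) (fun a b hab' hbb' ha hb => ?_)
    (fun a _ ha => by rw [inv_pow, ha, inv_one]) ha
  have hab : Commute a b := omegaOneCenter_comm X hab' hbb'
  rw [hab.mul_pow, ha, hb, one_mul]

/-- A normal subgroup of `E` of `p`-power order lies in `O_p(E)`. -/
theorem le_pCoreOf {E X : Subgroup G} (hXE : X ≤ E) (hE : E ≤ Subgroup.normalizer (X : Set G))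
    (hX : IsPGroup p X) : X ≤ pCoreOf p E := by
  haveI : (X.subgroupOf E).Normal := Subgroup.normal_subgroupOf_of_le_normalizer hE
  have h := CfsgLib.Constrained.le_pCore (p := p) (N := X.subgroupOf E) inferInstance
    (hX.of_equiv (Subgroup.subgroupOfEquivOfLe hXE).symm)
  intro x hx
  exact ⟨⟨x, hXE hx⟩, h hx, rfl⟩

theorem pCoreOf_le (E : Subgroup G) : pCoreOf p E ≤ E := Subgroup.map_subtype_le _

theorem isPGroup_pCoreOf [Finite G] [Fact p.Prime] (E : Subgroup G) : IsPGroup p (pCoreOf p E) :=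
  (CfsgLib.Constrained.isPGroup_pCore (G := E)).map _

theorem le_normalizer_pCoreOf [Finite G] [Fact p.Prime] (E : Subgroup G) :
    E ≤ Subgroup.normalizer (pCoreOf p E : Set G) := by
  intro e he
  rw [Subgroup.mem_normalizer_iff]
  have key : ∀ e ∈ E, ∀ x ∈ pCoreOf p E, e * x * e⁻¹ ∈ pCoreOf p E := by
    rintro e he _ ⟨y, hy, rfl⟩
    exact ⟨⟨e, he⟩ * y * ⟨e, he⟩⁻¹, (CfsgLib.Constrained.instNormalPCore p).conj_mem y hy _, rfl⟩
  exact fun x => ⟨key e he x, fun hx => by simpa [mul_assoc] using key e⁻¹ (inv_mem he) _ hx⟩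

/-- The module-theoretic content of the definition of a block. -/
theorem block_module {T E : Subgroup G} [Fact p.Prime] (h : IsBaumannBlock p T E) :
    E ≤ Subgroup.normalizer (omegaOneCenter p (pCoreOf p E) : Set G) ∧
    (∀ U₁ : Subgroup G, E ≤ Subgroup.normalizer (U₁ : Set G) →
      omegaOneCenter p (pCoreOf p E) ⊓ Subgroup.centralizer (E : Set G) ≤ U₁ →
      U₁ ≤ omegaOneCenter p (pCoreOf p E) →
      U₁ ≤ omegaOneCenter p (pCoreOf p E) ⊓ Subgroup.centralizer (E : Set G) ∨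
        U₁ = omegaOneCenter p (pCoreOf p E)) ∧
    (pCoreOf p E = omegaOneCenter p (pCoreOf p E) ∨
      (p = 3 ∧ ⁅pCoreOf p E, pCoreOf p E⁆ ≠ ⊥ ∧
        ∀ U₁ : Subgroup G, E ≤ Subgroup.normalizer (U₁ : Set G) → omegaOneCenter p (pCoreOf p E) ≤ U₁ →
          U₁ ≤ pCoreOf p E → U₁ ≤ omegaOneCenter p (pCoreOf p E) ∨ U₁ = pCoreOf p E)) := by
  obtain ⟨-, -, -, -, hlin | ⟨-, m, -, hsym, hQW⟩⟩ := h
  · obtain ⟨F, hF1, hF2, n, hn, -, hmod, hq⟩ := hlin
    refine ⟨hmod.1, (section_irreducible_linear hmod).2, ?_⟩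
    rcases hq with hq | ⟨hp3, hQ, hQQ, -, hZE, hcard, -⟩
    · exact Or.inl hq
    · refine Or.inr ⟨hp3, fun hbot => ?_, (section_irreducible_linear hQ).2⟩
      rw [hQQ, ← hZE] at hbot
      rw [hbot, Subgroup.card_bot] at hcard
      have hn0 : n = 0 := by
        rcases Nat.eq_zero_or_pos n with h0 | h0
        · exact h0
        · exact absurd hcard (Nat.one_lt_pow (by omega) (by omega)).ne
      rw [hn0, pow_zero] at hn
      exact absurd hn (Fintype.one_lt_card (α := F)).ne'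
  · exact ⟨hsym.1, section_irreducible_alt hsym, Or.inl hQW⟩

/-- `[X, E] = [[X, E], E]` for an abelian `E`-invariant `p`-subgroup `X` when `E = O^p(E)`. -/
theorem commutator_commutator_eq [Finite G] [Fact p.Prime] {X E : Subgroup G} (hres : pResidualOf p E = E)
    (hX : IsPGroup p X) (hcomm : ∀ a ∈ X, ∀ b ∈ X, a * b = b * a)
    (hE : E ≤ Subgroup.normalizer (X : Set G)) : ⁅⁅X, E⁆, E⁆ = ⁅X, E⁆ := by
  have hXE : ⁅X, E⁆ ≤ X := by
    rw [Subgroup.commutator_le]
    intro x hx e he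
    rw [commutatorElement_def, show x * e * x⁻¹ * e⁻¹ = x * (e * x⁻¹ * e⁻¹) by group]
    exact mul_mem hx ((Subgroup.mem_normalizer_iff.1 (hE he) _).1 (inv_mem hx))
  refine le_antisymm (Subgroup.commutator_mono hXE le_rfl) ?_
  set N := ⁅⁅X, E⁆, E⁆ with hN
  have hNX : N ≤ X := (Subgroup.commutator_mono hXE le_rfl).trans hXE
  have hconjE : ∀ g ∈ E, ∀ u ∈ ⁅X, E⁆, g * u * g⁻¹ * u⁻¹ ∈ N := fun g hg u hu => by
    have h1 := inv_mem (Subgroup.commutator_mem_commutator hu hg (H₁ := ⁅X, E⁆) (H₂ := E))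
    rwa [commutatorElement_inv, commutatorElement_def] at h1
  -- the set of elements acting trivially modulo `N`
  let S : Subgroup G :=
    { carrier := {e | e ∈ E ∧ ∀ x ∈ X, ⁅x, e⁆ ∈ N}
      one_mem' := ⟨one_mem _, fun x _ => by rw [commutatorElement_one_right]; exact one_mem _⟩
      mul_mem' := by
        rintro a b ⟨ha, ha'⟩ ⟨hb, hb'⟩
        refine ⟨mul_mem ha hb, fun x hx => ?_⟩
        rw [show ⁅x, a * b⁆ = ⁅x, a⁆ * ((a * ⁅x, b⁆ * a⁻¹ * ⁅x, b⁆⁻¹) * ⁅x, b⁆) by
          simp only [commutatorElement_def]; group]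
        exact mul_mem (ha' x hx) (mul_mem (hconjE a ha _ (Subgroup.commutator_mem_commutator hx hb)) (hb' x hx))
      inv_mem' := by
        rintro a ⟨ha, ha'⟩
        refine ⟨inv_mem ha, fun x hx => ?_⟩
        have h1 := inv_mem (ha' x hx)
        rw [show ⁅x, a⁻¹⁆ = (a⁻¹ * ⁅x, a⁆⁻¹ * a⁻¹⁻¹ * ⁅x, a⁆⁻¹⁻¹) * ⁅x, a⁆⁻¹ by
          simp only [commutatorElement_def]; group]
        exact mul_mem (hconjE _ (inv_mem ha) _ (inv_mem (Subgroup.commutator_mem_commutator hx ha))) h1 }
  suffices hES : E ≤ S by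
    rw [Subgroup.commutator_le]
    exact fun x hx e he => (hES he).2 x hx
  conv_lhs => rw [← hres]
  rw [mem_pResidualOf_iff_closure, Subgroup.closure_le]
  rintro e ⟨he, hcop⟩
  refine ⟨he, fun x hx => ?_⟩
  set u := ⁅x, e⁆ with hu
  have huXE : u ∈ ⁅X, E⁆ := Subgroup.commutator_mem_commutator hx he
  have hk : ∀ k : ℕ, ∃ c ∈ N, ⁅x, e ^ k⁆ = u ^ k * c := by
    intro k
    induction k with
    | zero => exact ⟨1, one_mem _, by simp⟩
    | succ k ih =>
      obtain ⟨c, hc, hk⟩ := ih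
      refine ⟨c * (e ^ k * u * (e ^ k)⁻¹ * u⁻¹), mul_mem hc (hconjE _ (pow_mem he k) u huXE), ?_⟩
      have hcu : Commute c u := hcomm c (hNX hc) u (hXE huXE)
      have hau : Commute (e ^ k * u * (e ^ k)⁻¹) u :=
        hcomm _ ((Subgroup.mem_normalizer_iff.1 (hE (pow_mem he k)) u).1 (hXE huXE)) u (hXE huXE)
      calc ⁅x, e ^ (k + 1)⁆ = ⁅x, e ^ k⁆ * (e ^ k * u * (e ^ k)⁻¹) := by
            rw [hu]; simp only [commutatorElement_def, pow_succ]; group
        _ = u ^ k * c * ((e ^ k * u * (e ^ k)⁻¹ * u) * u⁻¹) := by rw [hk, mul_inv_cancel_right]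
        _ = u ^ k * c * ((u * (e ^ k * u * (e ^ k)⁻¹)) * u⁻¹) := by rw [hau.eq]
        _ = u ^ k * (c * u) * (e ^ k * u * (e ^ k)⁻¹ * u⁻¹) := by group
        _ = u ^ k * (u * c) * (e ^ k * u * (e ^ k)⁻¹ * u⁻¹) := by rw [hcu.eq]
        _ = u ^ (k + 1) * (c * (e ^ k * u * (e ^ k)⁻¹ * u⁻¹)) := by rw [pow_succ]; group
  obtain ⟨c, hc, hc'⟩ := hk (orderOf e)
  rw [pow_orderOf_eq_one, commutatorElement_one_right] at hc'
  have huN : u ^ orderOf e ∈ N := by
    rw [eq_inv_of_mul_eq_one_left hc'.symm]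
    exact inv_mem hc
  obtain ⟨a, ha⟩ := hX ⟨u, hXE huXE⟩
  have hua : orderOf u ∣ p ^ a := orderOf_dvd_of_pow_eq_one (congrArg Subtype.val ha)
  have hcop' : (orderOf e).Coprime (orderOf u) :=
    Nat.Coprime.coprime_dvd_right hua (hcop.pow_right a)
  obtain ⟨m, hm⟩ := exists_pow_eq_self_of_coprime hcop'
  exact hm ▸ pow_mem huN m

/-- In a group of characteristic `p` the module of a block is `[Ω₁Z(O_p(G)), E]`. -/
theorem block_commutator_eq [Finite G] [Fact p.Prime]
    (hG : Subgroup.centralizer (pCore p G : Set G) ≤ pCore p G) (T : Sylow p G) {E : Subgroup G}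
    (hE : IsBaumannBlock p (T : Subgroup G) E) :
    ⁅omegaOneCenter p (pCoreOf p E), E⁆ = ⁅omegaOneCenter p (pCore p G), E⁆ ∧
    ⁅omegaOneCenter p (pCore p G), E⁆ ≤ omegaOneCenter p (pCoreOf p E) ∧
    ⁅⁅omegaOneCenter p (pCore p G), E⁆, E⁆ = ⁅omegaOneCenter p (pCore p G), E⁆ ∧
    ⁅omegaOneCenter p (pCore p G), E⁆ ≠ ⊥ ∧
    (⁅omegaOneCenter p (pCore p G), E⁆ ⊔
        (omegaOneCenter p (pCoreOf p E) ⊓ Subgroup.centralizer (E : Set G)) =
      omegaOneCenter p (pCoreOf p E)) ∧
    pCore p G ≤ Subgroup.normalizer (E : Set G) := by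
  set O := pCore p G with hO
  set V := omegaOneCenter p O with hV
  set Q := pCoreOf p E with hQ
  set W := omegaOneCenter p Q with hW
  obtain ⟨hEW, hirr, hcases⟩ := block_module hE
  obtain ⟨hres, hcomm, -, hZT, -⟩ := hE
  have hOn : O.Normal := CfsgLib.Constrained.instNormalPCore p
  have hOp : IsPGroup p O := CfsgLib.Constrained.isPGroup_pCore
  have hnormO : ∀ H : Subgroup G, H ≤ Subgroup.normalizer (O : Set G) := fun H g _ => by
    rw [Subgroup.normalizer_eq_top_iff.2 hOn]; exact Subgroup.mem_top g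
  have hON : O ≤ Subgroup.normalizer (E : Set G) :=
    le_normalizer_block T hres hcomm hOp (hnormO _) (hnormO _)
  have hVO : V ≤ O := omegaOneCenter_le O
  have hnormV : ∀ g : G, ∀ v ∈ V, g * v * g⁻¹ ∈ V := by
    intro g v hv
    have hOconj : O.map (MulAut.conj g).toMonoidHom = O :=
      Subgroup.mem_normalizer_iff_map_conj_eq.1 (hnormO ⊤ (Subgroup.mem_top g))
    have h1 : V.map (MulAut.conj g).toMonoidHom = V := by
      rw [hV, omegaOneCenter, ← map_omegaOne, Subgroup.map_inf _ _ _ (MulAut.conj g).injective,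
        ← map_centralizer, hOconj]
    exact h1.le ⟨v, hv, rfl⟩
  have hEV : E ≤ Subgroup.normalizer (V : Set G) := fun g _ => Subgroup.mem_normalizer_iff.2 fun v =>
    ⟨hnormV g v, fun h => by simpa [mul_assoc] using hnormV g⁻¹ _ h⟩
  have hVp : IsPGroup p V := hOp.to_le hVO
  have hVcomm : ∀ a ∈ V, ∀ b ∈ V, a * b = b * a := fun a ha b hb => omegaOneCenter_comm O ha hb
  set U := ⁅V, E⁆ with hU
  have hUU : ⁅U, E⁆ = U := commutator_commutator_eq hres hVp hVcomm hEV
  have hUV : U ≤ V := by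
    rw [hU, Subgroup.commutator_le]
    intro v hv e he
    rw [commutatorElement_def, show v * e * v⁻¹ * e⁻¹ = v * (e * v⁻¹ * e⁻¹) by group]
    exact mul_mem hv (hnormV e _ (inv_mem hv))
  have hUE : U ≤ E := by
    rw [hU, Subgroup.commutator_le]
    intro v hv e he
    rw [commutatorElement_def]
    exact mul_mem ((Subgroup.mem_normalizer_iff.1 (hON (hVO hv)) e).1 he) (inv_mem he)
  have hEU : E ≤ Subgroup.normalizer (U : Set G) := by
    have key : ∀ g ∈ E, ∀ u ∈ U, g * u * g⁻¹ ∈ U := fun g hg u hu => by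
      have h1 : ⁅u⁻¹, g⁆ ∈ U := by
        conv_lhs => rw [← hUU]
        exact Subgroup.commutator_mem_commutator (inv_mem hu) hg
      rw [show g * u * g⁻¹ = u * ⁅u⁻¹, g⁆ by simp only [commutatorElement_def]; group]
      exact mul_mem hu h1
    intro g hg
    rw [Subgroup.mem_normalizer_iff]
    exact fun u => ⟨key g hg u, fun h => by simpa [mul_assoc] using key g⁻¹ (inv_mem hg) _ h⟩
  have hUp : IsPGroup p U := hVp.to_le hUV
  have hUQ : U ≤ Q := le_pCoreOf hUE hEU hUp
  -- `U ≠ 1`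
  have hne : U ≠ ⊥ := by
    intro h0
    refine hZT ?_
    rw [Subgroup.commutator_comm]
    refine eq_bot_iff.2 (le_trans (Subgroup.commutator_mono ?_ le_rfl) h0.le)
    rw [hV, omegaOneCenter, omegaOneCenter, omegaOne, omegaOne]
    refine Subgroup.closure_mono ?_
    rintro x ⟨hx, hxp⟩
    have hOT : O ≤ (T : Subgroup G) := by
      obtain ⟨T', hT'⟩ := hOp.exists_le_sylow
      obtain ⟨g, hg⟩ := MulAction.exists_smul_eq G T' T
      intro o ho
      rw [← hg]
      exact ⟨g⁻¹ * o * g, hT' (by simpa using hOn.conj_mem o ho g⁻¹), by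
        show g * (g⁻¹ * o * g) * g⁻¹ = o; group⟩
    have hxC : x ∈ Subgroup.centralizer (O : Set G) := Subgroup.centralizer_le hOT hx.2
    exact ⟨⟨hG hxC, hxC⟩, hxp⟩
  -- `U ≤ W`
  have hWQ : W ≤ Q := omegaOneCenter_le Q
  have hUW : U ≤ W := by
    rcases hcases with h | ⟨-, hnab, hirr'⟩
    · exact hUQ.trans h.le
    have hsup : E ≤ Subgroup.normalizer ((U ⊔ W : Subgroup G) : Set G) := fun e he => by
      rw [Subgroup.mem_normalizer_iff_map_conj_eq, Subgroup.map_sup,
        Subgroup.mem_normalizer_iff_map_conj_eq.1 (hEU he),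
        Subgroup.mem_normalizer_iff_map_conj_eq.1 (hEW he)]
    rcases hirr' (U ⊔ W) hsup le_sup_right (sup_le hUQ hWQ) with h | h
    · exact le_sup_left.trans h
    · exfalso
      refine hnab (Subgroup.commutator_eq_bot_iff_le_centralizer.2 ?_)
      have hUcW : U ≤ Subgroup.centralizer (W : Set G) := fun u hu =>
        Subgroup.mem_centralizer_iff.2 fun w hw =>
          (Subgroup.mem_centralizer_iff.1 (omegaOneCenter_le_centralizer Q hw) u (hUQ hu)).symm
      have hWQc : W ≤ Subgroup.centralizer (Q : Set G) := omegaOneCenter_le_centralizer Q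
      have hUQc : U ≤ Subgroup.centralizer (Q : Set G) := by
        refine le_trans ?_ (Subgroup.centralizer_le h.ge)
        refine Subgroup.le_centralizer_iff.1 (sup_le ?_ ?_)
        · exact fun a ha => Subgroup.mem_centralizer_iff.2 fun b hb => hVcomm b (hUV hb) a (hUV ha)
        · exact Subgroup.le_centralizer_iff.1 hUcW
      exact h.ge.trans (sup_le hUQc hWQc)
  set Z₀ := W ⊓ Subgroup.centralizer (E : Set G) with hZ₀
  have hUZ : U ⊔ Z₀ = W := by
    have hsup : E ≤ Subgroup.normalizer ((U ⊔ Z₀ : Subgroup G) : Set G) := by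
      intro e he
      have hZe : e ∈ Subgroup.normalizer (Z₀ : Set G) := by
        rw [Subgroup.mem_normalizer_iff]
        intro z
        constructor
        · intro hz
          rwa [Subgroup.mem_centralizer_iff.1 hz.2 e he, mul_inv_cancel_right]
        · intro hz
          have h1 := Subgroup.mem_centralizer_iff.1 hz.2 e he
          have h2 : e * z * e⁻¹ = z := by
            apply mul_left_cancel (a := e)
            rw [h1, inv_mul_cancel_right]
          rwa [h2] at hz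
      rw [Subgroup.mem_normalizer_iff_map_conj_eq, Subgroup.map_sup,
        Subgroup.mem_normalizer_iff_map_conj_eq.1 (hEU he),
        Subgroup.mem_normalizer_iff_map_conj_eq.1 hZe]
    rcases hirr (U ⊔ Z₀) hsup le_sup_right (sup_le hUW inf_le_left) with h | h
    · exfalso
      refine hne (hUU ▸ Subgroup.commutator_eq_bot_iff_le_centralizer.2 ?_)
      exact (le_sup_left.trans h).trans inf_le_right
    · exact h
  refine ⟨le_antisymm ?_ ?_, hUW, hUU, hne, hUZ, hON⟩
  · rw [Subgroup.commutator_le]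
    intro w hw e he
    have hw' : w ∈ U ⊔ Z₀ := hUZ.symm ▸ hw
    have hcomm' : ∀ z ∈ Z₀, ∀ u ∈ U, z * u = u * z := fun z hz u hu => omegaOneCenter_comm Q hz.1 (hUW hu)
    have hUN : U ≤ Subgroup.normalizer (Z₀ : Set G) := fun u hu => by
      rw [Subgroup.mem_normalizer_iff]
      intro z
      constructor
      · intro hz; rwa [← hcomm' z hz u hu, mul_inv_cancel_right]
      · intro hz
        have h2 : e * 1 = e := mul_one e
        have h1 : u * (u * z * u⁻¹) = u * z := by
          rw [← hcomm' _ hz u hu, inv_mul_cancel_right]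
        rwa [mul_left_cancel h1] at hz
    rw [← SetLike.mem_coe, Subgroup.coe_mul_of_left_le_normalizer_right U Z₀ hUN] at hw'
    obtain ⟨u, hu, z, hz, rfl⟩ := hw'
    have h1 : ⁅z, e⁆ = 1 :=
      commutatorElement_eq_one_iff_mul_comm.2 (Subgroup.mem_centralizer_iff.1 hz.2 e he).symm
    rw [show ⁅u * z, e⁆ = u * ⁅z, e⁆ * u⁻¹ * ⁅u, e⁆ by simp only [commutatorElement_def]; group,
      h1, mul_one, mul_inv_cancel, one_mul]
    exact Subgroup.commutator_mem_commutator (hUV hu) he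
  · exact hUU.symm.le.trans (Subgroup.commutator_mono hUW le_rfl)

end CfsgLib.BaumannBlock
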